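import Cfsg.Agent.Class.FG.RealBound

/-!
# Numerical bounds for the class numbers of symplectic and orthogonal groups
-/

set_option autoImplicit false

namespace Cfsg.Agent.Class.FG

open Finset

/-- The number of palindromic polynomials of even degree `D`. -/
def pal (q D : ℕ) : ℕ := if Even D then q ^ (D / 2) else 0

/-- Multiplication of a generating function by `(1 + t) ^ 2`. -/
def ext2 (a : ℕ → ℕ) : ℕ → ℕ
  | 0 => a 0
  | 1 => a 1 + 2 * a 0
  | D + 2 => a (D + 2) + 2 * a (D + 1) + a D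

/-- The level weights: levels satisfying `P` carry two signs. -/
def aS (P : ℕ → Prop) [DecidablePred P] (q i : ℕ) : ℕ → ℕ :=
  if P i then ext2 (ext2 (pal q)) else pal q

/-- The level weights when the first level divides `X ^ 2 - 1`. -/
def aT (q i D : ℕ) : ℕ := if i = 1 then (if D = 0 then 1 else if D ≤ 2 then 4 else 0) else aS Odd q i D

theorem W_scale {a b : ℕ → ℕ → ℕ} {ρ : ℝ} (hρ : 1 ≤ ρ)
    (h : ∀ i e, (a i e : ℝ) ≤ b i e * ρ ^ (e / 2)) (N m : ℕ) :
    (W a N m : ℝ) ≤ W b N m * ρ ^ (m / 2) := by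
  rw [← sum_Ty, ← sum_Ty]
  push_cast
  rw [sum_mul]
  refine sum_le_sum fun d hd => (prod_le_prod (fun _ _ => Nat.cast_nonneg _) fun i _ => h _ _).trans ?_
  rw [prod_mul_distrib, prod_pow_eq_pow_sum, ← mem_Ty.1 hd]
  gcongr
  rw [Nat.le_div_iff_mul_le two_pos, sum_mul]
  exact sum_le_sum fun i _ => (Nat.div_mul_le_self _ _).trans (Nat.le_mul_of_pos_left _ (Nat.succ_pos _))

theorem ext2_scale {a b : ℕ → ℕ} {ρ : ℝ} (hρ : 1 ≤ ρ) (h : ∀ e, (a e : ℝ) ≤ b e * ρ ^ (e / 2)) (e : ℕ) :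
    (ext2 a e : ℝ) ≤ ext2 b e * ρ ^ (e / 2) := by
  have k : ∀ j, j ≤ e → (a j : ℝ) ≤ b j * ρ ^ (e / 2) := fun j hj => (h j).trans (by gcongr)
  obtain _ | _ | e := e <;> simp only [ext2] <;> push_cast
  · exact h 0
  · linarith [k 0 (by omega), k 1 (by omega)]
  · linarith [k e (by omega), k (e + 1) (by omega), k (e + 2) (by omega)]

theorem aS_scale (P : ℕ → Prop) [DecidablePred P] {q : ℕ} (hq : 3 ≤ q) (i e : ℕ) :
    (aS P q i e : ℝ) ≤ aS P 3 i e * (q / 3) ^ (e / 2) := by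
  have h1 : (1 : ℝ) ≤ q / 3 := by rw [one_le_div (by norm_num)]; exact_mod_cast hq
  have h2 : ∀ e, (pal q e : ℝ) ≤ pal 3 e * (q / 3) ^ (e / 2) := fun e => by
    unfold pal
    split_ifs
    · push_cast
      rw [← mul_pow, mul_div_cancel₀ _ (by norm_num)]
    · simp
  unfold aS
  split_ifs
  exacts [ext2_scale h1 (ext2_scale h1 h2) e, h2 e]

theorem W_le_of_three {a b : ℕ → ℕ → ℕ} {q : ℕ} (hq : 3 ≤ q)
    (h : ∀ i e, (a i e : ℝ) ≤ b i e * (q / 3) ^ (e / 2)) {N m : ℕ} {c : ℝ}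
    (hb : (W b N m : ℝ) ≤ c * 3 ^ (m / 2)) : (W a N m : ℝ) ≤ c * q ^ (m / 2) := by
  refine (W_scale (by rw [one_le_div (by norm_num)]; exact_mod_cast hq) h N m).trans
    ((mul_le_mul_of_nonneg_right hb (by positivity)).trans_eq ?_)
  rw [mul_assoc, ← mul_pow, mul_div_cancel₀ _ (by norm_num)]

theorem sum_pal_le {z : ℝ} (h0 : 0 ≤ z) (h1 : 3 * z ^ 2 < 1) (K : ℕ) :
    ∑ e ∈ range K, (pal 3 e : ℝ) * z ^ e ≤ 1 / (1 - 3 * z ^ 2) := by
  have h2 : ∀ K, ∑ e ∈ range (2 * K), (pal 3 e : ℝ) * z ^ e = ∑ e ∈ range K, (3 * z ^ 2) ^ e :=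
    fun K => by
      induction K with
      | zero => simp
      | succ K ih =>
        rw [mul_add, sum_range_succ, sum_range_succ, ih, sum_range_succ]
        simp [pal, mul_pow, ← pow_mul]
  refine le_trans (sum_le_sum_of_subset_of_nonneg (range_mono (show K ≤ 2 * K by omega))
    fun _ _ _ => by positivity) ?_
  simpa [h2] using geom_sum_Ico_le_of_lt_one (m := 0) (n := K) (by positivity) h1

theorem sum_ext2_le {a : ℕ → ℕ} {z γ : ℝ} (h0 : 0 ≤ z) (h : ∀ K, ∑ e ∈ range K, (a e : ℝ) * z ^ e ≤ γ)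
    (K : ℕ) : ∑ e ∈ range K, (ext2 a e : ℝ) * z ^ e ≤ (1 + z) ^ 2 * γ := by
  have h2 : ∀ K, ∑ e ∈ range (K + 2), (ext2 a e : ℝ) * z ^ e = ∑ e ∈ range (K + 2), (a e : ℝ) * z ^ e +
      2 * z * ∑ e ∈ range (K + 1), (a e : ℝ) * z ^ e + z ^ 2 * ∑ e ∈ range K, (a e : ℝ) * z ^ e :=
    fun K => by
      induction K with
      | zero => simp [sum_range_succ, ext2]; ring
      | succ K ih =>
        rw [sum_range_succ, ih, sum_range_succ _ (K + 2), sum_range_succ _ (K + 1), sum_range_succ _ K]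
        simp only [ext2]
        push_cast
        ring
  refine le_trans (sum_le_sum_of_subset_of_nonneg (range_mono (show K ≤ K + 2 by omega))
    fun _ _ _ => by positivity) ?_
  rw [h2]
  nlinarith [h (K + 2), mul_le_mul_of_nonneg_left (h (K + 1)) h0,
    mul_le_mul_of_nonneg_left (h K) (sq_nonneg z)]

/-- The bound for the generating function of a level. -/
noncomputable def gam (P : ℕ → Prop) [DecidablePred P] (y : ℝ) (i : ℕ) : ℝ :=
  (if P (i + 2) then (1 + y ^ (i + 2)) ^ 4 else 1) / (1 - 3 * (y ^ (i + 2)) ^ 2)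

theorem three_mul_sq_lt {y : ℝ} (h0 : 0 ≤ y) (h1 : 3 * y ^ 4 < 1) (i : ℕ) :
    3 * (y ^ (i + 2)) ^ 2 < 1 := by
  have h2 : y ≤ 1 := by
    by_contra h
    nlinarith [one_le_pow₀ (n := 4) (not_le.1 h).le]
  rw [← pow_mul]
  nlinarith [pow_le_pow_of_le_one h0 h2 (show 4 ≤ (i + 2) * 2 by omega)]

theorem one_le_gam (P : ℕ → Prop) [DecidablePred P] {y : ℝ} (h0 : 0 ≤ y) (h1 : 3 * y ^ 4 < 1)
    (i : ℕ) : 1 ≤ gam P y i := by
  have := three_mul_sq_lt h0 h1 i
  rw [gam, one_le_div (by linarith)]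
  refine le_trans (by nlinarith [sq_nonneg (y ^ (i + 2))]) (show 1 ≤ _ from ?_)
  split_ifs
  exacts [one_le_pow₀ (le_add_of_nonneg_right (by positivity)), le_rfl]

theorem W_le_prod_gam (P : ℕ → Prop) [DecidablePred P] {a : ℕ → ℕ → ℕ} {x y β : ℝ} (hx : 0 < x)
    (hy : x⁻¹ ≤ y) (h1 : 3 * y ^ 4 < 1) (hβ : 0 ≤ β) (ha : ∀ m, (a 1 m : ℝ) ≤ β * x ^ m)
    (ha' : ∀ i, a (i + 2) = aS P 3 (i + 2)) (N m : ℕ) :
    (W a (N + 1) m : ℝ) ≤ β * (∏ i ∈ range N, gam P y i) * x ^ m := by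
  have h0 : 0 ≤ y := (inv_pos.2 hx).le.trans hy
  induction N generalizing m with
  | zero => simpa [W_one] using ha m
  | succ N ih =>
    rw [prod_range_succ, ← mul_assoc]
    refine W_succ_le hx (mul_nonneg hβ (prod_nonneg fun i _ => zero_le_one.trans (one_le_gam P h0 h1 i)))
      ih (fun K => le_trans (sum_le_sum (g := fun e => (a (N + 2) e : ℝ) * (y ^ (N + 2)) ^ e)
        fun e _ => by gcongr) ?_) m
    have h2 := sum_pal_le (by positivity) (three_mul_sq_lt h0 h1 N)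
    rw [ha', aS, gam]
    split_ifs
    · exact (sum_ext2_le (by positivity) (sum_ext2_le (by positivity) h2) K).trans_eq (by ring)
    · exact h2 K

theorem prod_gam_le (P : ℕ → Prop) [DecidablePred P] {y C : ℝ} (h0 : 0 ≤ y) (h1 : 3 * y ^ 4 < 1)
    (M : ℕ) (hM : y ^ (M + 2) ≤ 1 / 20) (ht : 5 * y ^ 2 * (y ^ M / (1 - y)) < 1)
    (hC : (∏ i ∈ range M, gam P y i) * (1 / (1 - 5 * y ^ 2 * (y ^ M / (1 - y)))) ≤ C) (N : ℕ) :
    ∏ i ∈ range N, gam P y i ≤ C := by
  have h2 : y < 1 := by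
    by_contra h
    nlinarith [one_le_pow₀ (n := 4) (not_lt.1 h)]
  refine (prod_le_of_geom (one_le_gam P h0 h1) M (by positivity) h0 h2 (fun i hi => ?_) ht N).trans hC
  have h3 := (pow_le_pow_of_le_one h0 h2.le (show M + 2 ≤ i + 2 by omega)).trans hM
  rw [gam, div_le_iff₀ (by linarith [three_mul_sq_lt h0 h1 i]), mul_assoc, ← pow_add, add_comm 2]
  have h4 : 0 ≤ y ^ (i + 2) := by positivity
  generalize y ^ (i + 2) = z at h3 h4
  have h5 : (1 + z) ^ 4 ≤ (1 + 5 * z) * (1 - 3 * z ^ 2) := by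
    nlinarith [mul_nonneg h4 (sub_nonneg.2 h3), mul_nonneg (mul_nonneg h4 h4) (sub_nonneg.2 h3),
      mul_nonneg (mul_nonneg h4 (mul_nonneg h4 h4)) (sub_nonneg.2 h3)]
  split_ifs
  exacts [h5, (one_le_pow₀ (by linarith)).trans h5]

theorem sqrt_three_pow (n : ℕ) : √3 ^ (2 * n) = 3 ^ n := by
  rw [pow_mul, Real.sq_sqrt (by norm_num)]

theorem sqrt_three_bounds : 1.732 ≤ √3 ∧ √3 ≤ 1.7321 :=
  ⟨Real.le_sqrt_of_sq_le (by norm_num), Real.sqrt_le_iff.2 ⟨by norm_num, by norm_num⟩⟩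

theorem pal_le (m : ℕ) : (pal 3 m : ℝ) ≤ √3 ^ m := by
  unfold pal
  split_ifs with h
  · obtain ⟨k, rfl⟩ := h
    rw [← two_mul, sqrt_three_pow, Nat.mul_div_cancel_left _ two_pos]
    simp
  · simp

theorem W_aS_le (P : ℕ → Prop) [DecidablePred P] {β C : ℝ} (hβ : 0 ≤ β)
    (ha : ∀ m, (aS P 3 1 m : ℝ) ≤ β * √3 ^ m) (hC : ∀ N, ∏ i ∈ range N, gam P 0.5774 i ≤ C)
    (N m : ℕ) : (W (aS P 3) N m : ℝ) ≤ β * C * √3 ^ m := by
  have h := sqrt_three_bounds
  refine le_trans (Nat.cast_le.2 (W_le_succ (fun i => by unfold aS; split_ifs <;> rfl) N m))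
    ((W_le_prod_gam P (y := 0.5774) (by positivity) (by
      rw [inv_le_comm₀ (by positivity) (by norm_num)]; norm_num; linarith) (by norm_num) hβ ha
      (fun _ => rfl) N m).trans ?_)
  have := hC N
  gcongr

theorem W_Sp_le {q : ℕ} (hq : 3 ≤ q) (N n : ℕ) : 5 * W (aS Even q) N (2 * n) ≤ 54 * q ^ n := by
  have := W_le_of_three (c := 10.8) hq (aS_scale Even hq) (N := N) (m := 2 * n) (by
    simpa [sqrt_three_pow] using W_aS_le Even (β := 1) (C := 10.8) zero_le_one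
      (by simpa [aS] using pal_le) (prod_gam_le _ (by norm_num) (by norm_num) 13 (by norm_num)
        (by norm_num) (by norm_num [prod_range_succ, gam, Nat.even_iff])) N (2 * n))
  rw [Nat.mul_div_cancel_left _ two_pos] at this
  rw [← Nat.cast_le (α := ℝ)]
  push_cast
  linarith

theorem W_pal_le {q : ℕ} (hq : 3 ≤ q) (N n : ℕ) :
    5 * W (aS (fun _ => False) q) N (2 * n) ≤ 10 * q ^ n := by
  have := W_le_of_three (c := 2) hq (aS_scale (fun _ => False) hq) (N := N) (m := 2 * n) (by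
    simpa [sqrt_three_pow] using W_aS_le (fun _ => False) (β := 1) (C := 2) zero_le_one
      (by simpa [aS] using pal_le) (prod_gam_le _ (by norm_num) (by norm_num) 7 (by norm_num)
        (by norm_num) (by norm_num [prod_range_succ, gam])) N (2 * n))
  rw [Nat.mul_div_cancel_left _ two_pos] at this
  rw [← Nat.cast_le (α := ℝ)]
  push_cast
  linarith

theorem aS_odd_one_le (m : ℕ) : (aS Odd 3 1 m : ℝ) ≤ 28 / 9 * √3 ^ m := by
  have h := sqrt_three_bounds
  have h2 : √3 ^ 2 = 3 := Real.sq_sqrt (by norm_num)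
  rw [aS, if_pos odd_one]
  obtain _ | _ | _ | _ | m := m
  · norm_num [ext2, pal]
  · norm_num [ext2, pal]; linarith
  · norm_num [ext2, pal]
  · norm_num [ext2, pal, pow_succ _ 2, h2]; linarith
  obtain ⟨k, rfl | rfl⟩ := Nat.even_or_odd' m
  · rw [show 2 * k + 1 + 1 + 1 + 1 = 2 * (k + 2) by ring, sqrt_three_pow]
    simp [ext2, pal, mul_add, Nat.even_add_one, pow_succ, show (2 * k + 1 + 1) / 2 = k + 1 by omega]
    linarith
  · rw [pow_succ, show 2 * k + 1 + 1 + 1 + 1 = 2 * (k + 2) by ring, sqrt_three_pow]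
    simp [ext2, pal, mul_add, Nat.even_add_one, Nat.mul_add_div, pow_succ, add_assoc]
    nlinarith [pow_pos (show (0 : ℝ) < 3 by norm_num) k]

theorem W_O_le (N m : ℕ) : (W (aS Odd 3) N m : ℝ) ≤ 17 * √3 ^ m :=
  (W_aS_le Odd (C := 5.46) (by norm_num) aS_odd_one_le (prod_gam_le _ (by norm_num) (by norm_num) 10
    (by norm_num) (by norm_num) (by norm_num [prod_range_succ, gam, Nat.odd_iff])) N m).trans
    (by gcongr; norm_num)

theorem W_O_even_le {q : ℕ} (hq : 3 ≤ q) (N n : ℕ) : W (aS Odd q) N (2 * n) ≤ 17 * q ^ n := by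
  have := W_le_of_three (c := 17) hq (aS_scale Odd hq) (N := N) (m := 2 * n) (by
    simpa [sqrt_three_pow] using W_O_le N (2 * n))
  rw [Nat.mul_div_cancel_left _ two_pos] at this
  exact_mod_cast this

theorem W_O_odd_le {q : ℕ} (hq : 3 ≤ q) (N n : ℕ) : W (aS Odd q) N (2 * n + 1) ≤ 30 * q ^ n := by
  have h : (2 * n + 1) / 2 = n := by omega
  have := W_le_of_three (c := 30) hq (aS_scale Odd hq) (N := N) (m := 2 * n + 1) (by
    have := W_O_le N (2 * n + 1)
    rw [pow_succ, sqrt_three_pow] at this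
    rw [h]
    nlinarith [sqrt_three_bounds.2, pow_pos (show (0 : ℝ) < 3 by norm_num) n])
  rw [h] at this
  exact_mod_cast this

theorem W_aT_le {q : ℕ} (hq : 3 ≤ q) {n : ℕ} (N : ℕ) : W (aT q) N (2 * n + 1) ≤ 9 * q ^ n := by
  have h : (2 * n + 1) / 2 = n := by omega
  have h0 : ∀ i, aT 3 i 0 = 1 := fun i => by unfold aT aS; split_ifs <;> first | rfl | omega
  have := W_le_of_three (a := aT q) (b := aT 3) (c := 9) hq (fun i e => by
    unfold aT
    by_cases hi : i = 1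
    · simp only [if_pos hi]
      exact le_mul_of_one_le_right (Nat.cast_nonneg _) (one_le_pow₀ (by
        rw [one_le_div (by norm_num)]; exact_mod_cast hq))
    · simpa only [if_neg hi] using aS_scale Odd hq i e) (N := N) (m := 2 * n + 1) (by
    rw [h]
    refine (Nat.cast_le.2 (W_le_self h0 N _)).trans ?_
    by_cases hn : n ≤ 8
    · have : ∀ n ≤ 8, W (aT 3) (2 * n + 1) (2 * n + 1) ≤ 9 * 3 ^ n := by decide +kernel
      exact_mod_cast this n hn
    · obtain ⟨k, rfl⟩ := Nat.exists_eq_add_of_le' (not_le.1 hn)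
      have h1 := W_le_prod_gam Odd (a := aT 3) (x := 3 / 2) (y := 2 / 3) (β := 8 / 3) (by norm_num)
        (by norm_num) (by norm_num) (by norm_num) (fun m => by
          obtain _ | _ | _ | m := m <;> norm_num [aT]) (fun _ => rfl)
        (2 * (k + Nat.succ 8)) (2 * (k + Nat.succ 8) + 1)
      have h2 := prod_gam_le Odd (y := 2 / 3) (C := 29.9) (by norm_num) (by norm_num) 16 (by norm_num)
        (by norm_num) (by norm_num [prod_range_succ, gam, Nat.odd_iff]) (2 * (k + Nat.succ 8))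
      refine h1.trans ((mul_le_mul_of_nonneg_right (mul_le_mul_of_nonneg_left h2 (by norm_num))
        (by positivity)).trans ?_)
      have h3 : ((3 / 2 : ℝ) ^ 2) ^ k ≤ 3 ^ k := by gcongr; norm_num
      rw [pow_succ, pow_mul, pow_add, pow_add]
      norm_num at h3 ⊢
      linarith [pow_pos (show (0 : ℝ) < 3 by norm_num) k])
  rw [h] at this
  exact_mod_cast this

end Cfsg.Agent.Class.FG
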