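import Cfsg.Agent.Class.FG.SlotNum
import Cfsg.Agent.Class.FG.SelfDual
import Cfsg.Agent.Class.Orth.SqClass

/-!
# Counting multisets of elementary divisors with signs
-/

set_option autoImplicit false

namespace Cfsg.Agent.Class.FG

open Polynomial Finset
open Cfsg.Agent.KSG (IsPP)
open Cfsg.Agent.Class.Wall (dual)
open Cfsg.Agent.Class.Orth (SqClass)

variable {F : Type*} [Field F] [Finite F]

theorem exists_eq_mul_of_isRoot {f : F[X]} {D : ℕ} (hf : f ∈ monFin F D) {c : F} (h : f.IsRoot c) :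
    ∃ g, 1 ≤ D ∧ g ∈ monFin F (D - 1) ∧ f = (X - C c) * g ∧
      f.rootMultiplicity c = g.rootMultiplicity c + 1 := by
  obtain ⟨g, rfl⟩ := dvd_iff_isRoot.2 h
  obtain ⟨h1, rfl⟩ := mem_monFin.1 hf
  have h2 := (monic_X_sub_C c).of_mul_monic_left h1
  rw [(monic_X_sub_C c).natDegree_mul h2, natDegree_X_sub_C]
  exact ⟨g, by omega, mem_monFin.2 ⟨h2, by omega⟩, rfl, by
    rw [rootMultiplicity_mul h1.ne_zero, rootMultiplicity_X_sub_C_self, add_comm]⟩

theorem card_ext2 (h2 : (2 : F) ≠ 0) {Y : Type*} [Finite Y] {c : F}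
    (R : F[X] → Y → Prop) (hR : ∀ f y, R ((X - C c) * f) y → R f y) {a : ℕ → ℕ}
    (ha : ∀ D (T : Finset (F[X] × Y)), (∀ x ∈ T, x.1 ∈ monFin F D ∧ R x.1 x.2 ∧
      Even (x.1.rootMultiplicity c)) → T.card ≤ a D) (D : ℕ) (T : Finset (F[X] × SqClass F × Y))
    (hT : ∀ x ∈ T, x.1 ∈ monFin F D ∧ R x.1 x.2.2 ∧ (x.2.1 ≠ 1 → x.1.IsRoot c)) :
    T.card ≤ ext2 a D := by
  classical
  have : Finite (SqClass F) := Nat.finite_of_card_ne_zero (by simp [Orth.card_sqClass h2])
  have := Fintype.ofFinite (SqClass F)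
  have := Fintype.ofFinite Y
  obtain ⟨ζ, hζ⟩ := Orth.exists_sqClass_ne_one h2
  let S := fun D => (monFin F D ×ˢ univ).filter fun x => R x.1 x.2 ∧ Even (x.1.rootMultiplicity c)
  refine (card_le_card (t := (S D).image (fun x => (x.1, 1, x.2)) ∪
    (if 1 ≤ D then (S (D - 1) ×ˢ univ).image fun x => ((X - C c) * x.1.1, x.2, x.1.2) else ∅) ∪
    if 2 ≤ D then (S (D - 2)).image fun x => ((X - C c) * ((X - C c) * x.1), ζ, x.2) else ∅) ?_).trans
    ((card_union_le _ _).trans ((Nat.add_le_add_right (card_union_le _ _) _).trans ?_))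
  · rintro ⟨f, s, y⟩ hx
    obtain ⟨h1, h3, h4⟩ := hT _ hx
    dsimp only at h1 h3 h4
    rcases (f.rootMultiplicity c).even_or_odd with he | ho
    · by_cases hs : s = 1
      · exact mem_union_left _ (mem_union_left _ (mem_image.2 ⟨(f, y), by simp [S, *], by rw [hs]⟩))
      obtain ⟨g, g1, g2, rfl, g3⟩ := exists_eq_mul_of_isRoot h1 (h4 hs)
      rw [g3, Nat.even_add_one, Nat.not_even_iff_odd] at he
      obtain ⟨k, k1, k2, rfl, k3⟩ := exists_eq_mul_of_isRoot g2 (rootMultiplicity_pos'.1 he.pos).2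
      rw [k3, Nat.odd_add_one, Nat.not_odd_iff_even] at he
      refine mem_union_right _ ?_
      rw [if_pos (by omega)]
      exact mem_image.2 ⟨(k, y), by simpa [S] using ⟨k2, hR _ _ (hR _ _ h3), he⟩,
        by rw [Orth.sqClass_eq_of_ne_one hs hζ]⟩
    · obtain ⟨g, g1, g2, rfl, g3⟩ := exists_eq_mul_of_isRoot h1 (rootMultiplicity_pos'.1 ho.pos).2
      rw [g3, Nat.odd_add_one, Nat.not_odd_iff_even] at ho
      refine mem_union_left _ (mem_union_right _ ?_)
      rw [if_pos g1]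
      exact mem_image.2 ⟨((g, y), s), by simpa [S] using ⟨g2, hR _ _ h3, ho⟩, rfl⟩
  replace ha : ∀ D, (S D).card ≤ a D := fun D => ha D _ fun x hx => by simpa [S] using hx
  have k1 : ∀ D φ, ((S D).image φ : Finset (F[X] × SqClass F × Y)).card ≤ a D := fun D φ =>
    card_image_le.trans (ha D)
  have k2 : ∀ D φ, (((S D ×ˢ (univ : Finset (SqClass F))).image φ : Finset (F[X] × SqClass F × Y))).card
      ≤ 2 * a D := fun D φ => card_image_le.trans (by
    rw [card_product, card_univ, ← Nat.card_eq_fintype_card, Orth.card_sqClass h2, mul_comm]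
    exact Nat.mul_le_mul_left _ (ha D))
  obtain _ | _ | D := D
  · simpa [ext2] using k1 0 _
  · simpa [ext2] using Nat.add_le_add (k1 1 _) (k2 0 _)
  · simpa [ext2] using Nat.add_le_add (Nat.add_le_add (k1 (D + 2) _) (k2 (D + 1) _)) (k1 D _)

omit [Finite F] in
theorem dual_of_mul {c : F} (hc : c * c = 1) {f : F[X]}
    (h : dual (RingHom.id F) ((X - C c) * f) = (X - C c) * f ∧ ((X - C c) * f).coeff 0 ≠ 0) :
    dual (RingHom.id F) f = f ∧ f.coeff 0 ≠ 0 := by
  rw [Wall.dual_mul, Wall.dual_X_sub_C_of_norm hc] at h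
  exact ⟨mul_left_cancel₀ (X_sub_C_ne_zero c) h.1, Wall.coeff_zero_ne_of_dvd (dvd_mul_left _ _) h.2⟩

theorem card_pal_le (D : ℕ) (T : Finset F[X]) (hT : ∀ f ∈ T, f ∈ monFin F D ∧
    (dual (RingHom.id F) f = f ∧ f.coeff 0 ≠ 0) ∧ ∀ c : F, c * c = 1 → Even (f.rootMultiplicity c)) :
    T.card ≤ pal (Nat.card F) D := by
  classical
  replace hT : ∀ f ∈ T, f ∈ monFin F D ∧ dual (RingHom.id F) f = f ∧ Even f.natDegree ∧ f.coeff 0 = 1 :=
    fun f hf => (hT f hf).imp_right fun h => ⟨h.1.1, (even_rootMultiplicity_iff h.1.2 h.1.1).1 h.2⟩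
  unfold pal
  split_ifs with h
  · obtain ⟨k, rfl⟩ := h
    rw [← two_mul] at hT ⊢
    rw [Nat.mul_div_cancel_left _ two_pos, ← card_pal, ← card_filter_monFin]
    exact card_le_card fun f hf => mem_filter.2 ⟨(hT f hf).1, (hT f hf).2.1, (hT f hf).2.2.2⟩
  · rw [eq_empty_of_forall_notMem fun f hf => h ((mem_monFin.1 (hT f hf).1).2 ▸ (hT f hf).2.2.1),
      card_empty]

/-- The possible data of a level. -/
def LevOK (p : Prop) (D : ℕ) (x : F[X] × SqClass F × SqClass F × Unit) : Prop :=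
  x.1 ∈ monFin F D ∧ (dual (RingHom.id F) x.1 = x.1 ∧ x.1.coeff 0 ≠ 0) ∧
    (x.2.1 ≠ 1 → p ∧ x.1.IsRoot 1) ∧ (x.2.2.1 ≠ 1 → p ∧ x.1.IsRoot (-1)) ∧
    (¬ p → ∀ c : F, c * c = 1 → Even (x.1.rootMultiplicity c))

theorem card_levOK_le (h2 : (2 : F) ≠ 0) (P : ℕ → Prop) [DecidablePred P] (i D : ℕ)
    (T : Finset (F[X] × SqClass F × SqClass F × Unit)) (hT : ∀ x ∈ T, LevOK (P i) D x) :
    T.card ≤ aS P (Nat.card F) i D := by
  classical
  have : Finite (SqClass F) := Nat.finite_of_card_ne_zero (by simp [Orth.card_sqClass h2])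
  have h3 : (1 : F) ≠ -1 := fun e => h2 (by linear_combination e)
  unfold aS
  split_ifs with h
  · refine card_ext2 h2 (c := 1) (fun f (y : SqClass F × Unit) => (dual (RingHom.id F) f = f ∧
      f.coeff 0 ≠ 0) ∧ (y.1 ≠ 1 → f.IsRoot (-1))) (fun f y hf => ⟨dual_of_mul (by simp) hf.1,
        fun e => by simpa [sub_eq_zero, h3.symm] using hf.2 e⟩) (fun D T hT => ?_) D T fun x hx =>
      ⟨(hT x hx).1, ⟨(hT x hx).2.1, fun e => ((hT x hx).2.2.2.1 e).2⟩, fun e => ((hT x hx).2.2.1 e).2⟩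
    refine card_ext2 h2 (c := -1) (fun f (_ : Unit) => (dual (RingHom.id F) f = f ∧
      f.coeff 0 ≠ 0) ∧ Even (f.rootMultiplicity 1)) (fun f y hf => ⟨dual_of_mul (by simp) hf.1, ?_⟩)
      (fun D T hT => ?_) D T fun x hx => ⟨(hT x hx).1, ⟨(hT x hx).2.1.1, (hT x hx).2.2⟩, (hT x hx).2.1.2⟩
    · have := hf.2
      rwa [rootMultiplicity_mul (fun e => hf.1.2 (by rw [e, coeff_zero])), rootMultiplicity_eq_zero
        (by simpa [one_add_one_eq_two] using h2), zero_add] at this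
    · rw [← card_image_of_injective T fun x y (e : x.1 = y.1) => Prod.ext e rfl]
      refine card_pal_le D _ (forall_mem_image.2 fun x hx => ⟨(hT x hx).1, (hT x hx).2.1.1, ?_⟩)
      simpa only [mul_self_eq_one_iff, forall_eq_or_imp, forall_eq] using ⟨(hT x hx).2.1.2, (hT x hx).2.2⟩
  · rw [← card_image_of_injOn (f := Prod.fst) fun x hx y hy e => ?_]
    · exact card_pal_le D _ (forall_mem_image.2 fun x hx =>
        ⟨(hT x hx).1, (hT x hx).2.1, (hT x hx).2.2.2.2 h⟩)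
    have hx := hT x hx
    have hy := hT y hy
    simp only [LevOK, h, false_and, imp_false, not_not] at hx hy
    exact Prod.ext e (Prod.ext (hx.2.2.1.trans hy.2.2.1.symm)
      (Prod.ext (hx.2.2.2.1.trans hy.2.2.2.1.symm) rfl))

open Classical in
/-- A multiset of elementary divisors with signs at the levels satisfying `P`. -/
structure Code (P : ℕ → Prop) (m : ℕ) (s : Multiset F[X]) (σ : F → ℕ → SqClass F) : Prop where
  pp : ∀ b ∈ s, IsPP b
  nX : ∀ b ∈ s, ¬ X ∣ b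
  deg : (s.map natDegree).sum = m
  dual : s.map (dual (RingHom.id F)) = s
  even : ∀ (c : F) e, c * c = 1 → ¬ P e → Even (s.count ((X - C c) ^ e))
  sign : ∀ (c : F) e, c * c = 1 → σ c e ≠ 1 → P e ∧ (X - C c) ^ e ∈ s

theorem card_code_le' [Finite (SqClass F)] {P : ℕ → Prop} {m : ℕ} {Y : Type*} (S : Finset Y)
    (s : Y → Multiset F[X]) (σ : Y → F → ℕ → SqClass F) (h : ∀ x ∈ S, Code P m (s x) (σ x))
    (hi : ∀ x ∈ S, ∀ y ∈ S, s x = s y → (∀ c e, c * c = 1 → σ x c e = σ y c e) → x = y)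
    (Z : ℕ → F[X] → Prop) (hZ : ∀ x ∈ S, ∀ i, Z i (lev (s x) i)) {a : ℕ → ℕ → ℕ}
    (ha : ∀ i D (T : Finset (F[X] × SqClass F × SqClass F × Unit)),
      (∀ x ∈ T, LevOK (P i) D x ∧ Z i x.1) → T.card ≤ a i D) : S.card ≤ W a m m := by
  classical
  have := Fintype.ofFinite (SqClass F)
  have h1 : ∀ x ∈ S, ∀ c e, c * c = 1 → σ x c (e + 1) ≠ 1 → P (e + 1) ∧ (lev (s x) (e + 1)).IsRoot c :=
    fun x hx c e hc he => ((h x hx).sign c _ hc he).imp_right fun h1 => (rootMultiplicity_pos'.1 (by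
      rw [rootMultiplicity_lev (h x hx).pp c e.succ_ne_zero]; exact Multiset.count_pos.2 h1)).2
  refine (card_le_W (fun x => x.1.natDegree) (fun i D => (monFin F D ×ˢ univ).filter fun x =>
    LevOK (P i) D x ∧ Z i x.1) S
    (fun x i => (lev (s x) (i + 1), σ x 1 (i + 1), σ x (-1) (i + 1), ())) (fun x hx y hy e => ?_)
    (fun x hx => (sum_natDegree_lev (h x hx).pp (h x hx).deg.le).trans (h x hx).deg)
    fun x hx i => mem_filter.2 ⟨mem_product.2 ⟨mem_monFin.2 ⟨monic_lev (h x hx).pp _, rfl⟩,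
      mem_univ _⟩, ⟨mem_monFin.2 ⟨monic_lev (h x hx).pp _, rfl⟩, ⟨dual_lev (fun _ => rfl) (h x hx).pp (h x hx).nX (h x hx).dual _,
        coeff_zero_lev (h x hx).pp (h x hx).nX (Nat.succ_ne_zero _)⟩, h1 x hx _ _ (by simp),
        h1 x hx _ _ (by simp), fun hP c hc => ?_⟩, hZ x hx _⟩).trans
    (W_mono (fun i D => ha i D _ fun x hx => (mem_filter.1 hx).2) m m)
  · have h2 := lev_inj (h x hx).pp (h y hy).pp (h x hx).deg.le (h y hy).deg.le
      fun i => congrArg (·.1) (congrFun e i)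
    refine hi x hx y hy h2 fun c i hc => ?_
    by_cases h3 : (X - C c) ^ i ∈ s x
    · have h4 := ((h x hx).pp _ h3).natDegree_pos
      have h5 := (Multiset.le_sum_of_mem (Multiset.mem_map_of_mem natDegree h3)).trans (h x hx).deg.le
      simp only [natDegree_pow, natDegree_X_sub_C, mul_one] at h4 h5
      obtain ⟨j, rfl⟩ := Nat.exists_eq_add_one_of_ne_zero h4.ne'
      rcases mul_self_eq_one_iff.1 hc with rfl | rfl
      exacts [congrArg (·.2.1) (congrFun e ⟨j, h5⟩), congrArg (·.2.2.1) (congrFun e ⟨j, h5⟩)]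
    · rw [not_not.1 (mt ((h x hx).sign c i hc) fun k => h3 k.2),
        not_not.1 (mt ((h y hy).sign c i hc) fun k => h3 (h2 ▸ k.2))]
  · rw [rootMultiplicity_lev (h x hx).pp c (Nat.succ_ne_zero _)]
    exact (h x hx).even c _ hc hP

variable (h2 : (2 : F) ≠ 0) {m : ℕ} {Y : Type*} (S : Finset Y) (s : Y → Multiset F[X])
  (σ : Y → F → ℕ → SqClass F)
include h2

theorem card_code_le {P : ℕ → Prop} [DecidablePred P] (h : ∀ x ∈ S, Code P m (s x) (σ x))
    (hi : ∀ x ∈ S, ∀ y ∈ S, s x = s y → (∀ c e, c * c = 1 → σ x c e = σ y c e) → x = y) :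
    S.card ≤ W (aS P (Nat.card F)) m m := by
  have : Finite (SqClass F) := Nat.finite_of_card_ne_zero (by simp [Orth.card_sqClass h2])
  exact card_code_le' S s σ h hi (fun _ _ => True) (fun _ _ _ => trivial)
    fun i D T hT => card_levOK_le h2 P i D T fun x hx => (hT x hx).1

theorem card_code_le_aT (h : ∀ x ∈ S, Code Odd m (s x) (σ x))
    (hi : ∀ x ∈ S, ∀ y ∈ S, s x = s y → (∀ c e, c * c = 1 → σ x c e = σ y c e) → x = y)
    (h1 : ∀ x ∈ S, lev (s x) 1 ∣ X ^ 2 - C 1) : S.card ≤ W (aT (Nat.card F)) m m := by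
  have : Finite (SqClass F) := Nat.finite_of_card_ne_zero (by simp [Orth.card_sqClass h2])
  have := Fintype.ofFinite (SqClass F)
  refine card_code_le' S s σ h hi (fun i f => i = 1 → f ∣ X ^ 2 - C 1)
    (fun x hx i hi => hi ▸ h1 x hx) fun i D T hT => ?_
  have h3 := card_levOK_le h2 Odd i D T fun x hx => (hT x hx).1
  have h4 := fun x hx => mem_monFin.1 (hT x hx).1.1
  unfold aT
  split_ifs with a b c
  · subst a b
    simpa [aS, ext2, pal] using h3
  · subst a
    obtain rfl | rfl : D = 1 ∨ D = 2 := by omega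
    · simpa [aS, ext2, pal] using h3
    · have k : ∀ x ∈ T, X ^ 2 - C 1 = x.1 := fun x hx => eq_of_monic_of_dvd_of_natDegree_le
        (h4 x hx).1 (monic_X_pow_sub_C _ two_ne_zero) ((hT x hx).2 rfl)
        (by rw [natDegree_X_pow_sub_C, (h4 x hx).2])
      exact (card_le_card_of_injOn (t := univ) Prod.snd (by simp) fun x hx y hy e =>
        Prod.ext ((k x hx).symm.trans (k y hy)) e).trans
        (by simp [← Nat.card_eq_fintype_card, Orth.card_sqClass h2])
  · rw [eq_empty_of_forall_notMem (s := T) fun x hx => c (by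
      simpa only [natDegree_X_pow_sub_C, (h4 x hx).2] using
        natDegree_le_of_dvd ((hT x hx).2 a) (monic_X_pow_sub_C _ two_ne_zero).ne_zero), card_empty]
  · exact h3

end Cfsg.Agent.Class.FG
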